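import Cfsg.Agent.H989.Gs.Gen

/-!
# S5719, orthogonal groups, `q` odd: class sizes (helper237, for helper786)

* `class_sq_one` : an involution of `E Q` with a `k`-dimensional `-1`-eigenspace has at most `q^(k(N-k)+1)` conjugates;
* `class_sq_neg` : an element with `t² = -1` has at most `q^(M²)` conjugates, `N = 2 M`.
-/

set_option autoImplicit false

namespace Cfsg.Agent.H237.IF

open QuadraticMap Module Cfsg.Agent.LieClassical Cfsg.Agent.LieClassical.OrthCore
  Cfsg.Agent.H989.Gs.Gen

universe u v

/-! ### Conjugacy classes -/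

/-- the index of a centraliser is bounded by any set which separates the conjugates -/
theorem index_le_of_inj {G T : Type*} [Group G] [Finite T] (t : G) (f : G → T)
    (hf : ∀ g h, f g = f h → g * t * g⁻¹ = h * t * h⁻¹) :
    (Subgroup.centralizer ({t} : Set G)).index ≤ Nat.card T := by
  refine Nat.card_le_card_of_injective (fun q : G ⧸ Subgroup.centralizer ({t} : Set G) => f q.out) ?_
  intro q q' h
  have h1 := hf _ _ h
  rw [← Quotient.out_eq' q, ← Quotient.out_eq' q']
  apply QuotientGroup.eq.2
  rw [Subgroup.mem_centralizer_singleton_iff]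
  have h2 : t = (q.out)⁻¹ * (q'.out * t * (q'.out)⁻¹) * q.out := by
    rw [← h1]; group
  calc (q.out)⁻¹ * q'.out * t = (q.out)⁻¹ * (q'.out * t * (q'.out)⁻¹) * q.out * ((q.out)⁻¹ * q'.out) := by group
    _ = t * ((q.out)⁻¹ * q'.out) := by rw [← h2]

/-! ### Elements with `t² = -1` -/

section neg

variable {F : Type u} [Field F]

theorem polar_iso {V : Type v} [AddCommGroup V] [Module F V] {Q : QuadraticForm F V} {t : V →ₗ[F] V}
    (ht : ∀ v, Q (t v) = Q v) (x y : V) : polar Q (t x) (t y) = polar Q x y := by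
  unfold polar
  rw [← map_add, ht, ht, ht]

/-- number of complex structures -/
theorem card_J [Finite F] (h2 : (2 : F) ≠ 0) (M : ℕ) : ∀ {V : Type v} [AddCommGroup V] [Module F V]
    [FiniteDimensional F V] {Q : QuadraticForm F V}, Nondeg Q → finrank F V = 2 * M →
      Nat.card {t : V →ₗ[F] V // (∀ v, Q (t v) = Q v) ∧ ∀ v, t (t v) = -v} ≤ Nat.card F ^ (M ^ 2) := by
  induction M with
  | zero =>
    intro V _ _ _ Q hQ hM
    have hs : Subsingleton V := Module.finrank_zero_iff.1 hM
    have : Subsingleton {t : V →ₗ[F] V // (∀ v, Q (t v) = Q v) ∧ ∀ v, t (t v) = -v} := by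
      refine ⟨fun a b => Subtype.ext (LinearMap.ext fun v => Subsingleton.elim _ _)⟩
    rw [show (0 : ℕ) ^ 2 = 0 from rfl, pow_zero]
    exact Finite.card_le_one_iff_subsingleton.2 this
  | succ M ih =>
    intro V _ _ _ Q hQ hM
    have hV : Finite V := Module.finite_of_finite F
    -- a nonsingular vector
    obtain ⟨v1, hv1⟩ : ∃ v1, Q v1 ≠ 0 := by
      by_contra hcon
      push Not at hcon
      have h0 : ∀ x : V, x = 0 := fun x => hQ x fun y => by
        unfold polar
        rw [hcon, hcon, hcon, sub_zero, sub_zero]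
      have : Subsingleton V := ⟨fun a b => by rw [h0 a, h0 b]⟩
      rw [Module.finrank_zero_iff.2 this] at hM
      omega
    set B := LinearMap.ker (Q.polarBilin v1) with hB
    have hpself : ∀ x, polar Q x x = 2 * Q x := fun x => by
      rw [polar_self, two_smul, two_mul]
    have hBc : Nat.card B = Nat.card F ^ (2 * M + 1) := by
      rw [Module.natCard_eq_pow_finrank (K := F)]
      congr 1
      have h1 := LinearMap.finrank_range_add_finrank_ker (Q.polarBilin v1)
      have h3 : finrank F (LinearMap.range (Q.polarBilin v1)) = 1 := by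
        have h4 : LinearMap.range (Q.polarBilin v1) = ⊤ := by
          rw [LinearMap.range_eq_top]
          intro c
          refine ⟨(c / (2 * Q v1)) • v1, ?_⟩
          rw [map_smul, smul_eq_mul]
          have : (Q.polarBilin v1) v1 = 2 * Q v1 := hpself v1
          rw [this, div_mul_cancel₀]
          exact mul_ne_zero h2 hv1
        rw [h4, finrank_top, finrank_self]
      rw [h3, hM] at h1
      change 1 + finrank F B = _ at h1
      omega
    let T := {t : V →ₗ[F] V // (∀ v, Q (t v) = Q v) ∧ ∀ v, t (t v) = -v}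
    have hperp : ∀ t : T, polar Q v1 (t.1 v1) = 0 := by
      intro t
      have h3 := polar_iso t.2.1 v1 (t.1 v1)
      rw [t.2.2, polar_neg_right, polar_comm] at h3
      have h4 : 2 * polar Q v1 (t.1 v1) = 0 := by linear_combination -h3
      exact (mul_eq_zero.1 h4).resolve_left h2
    let ev : T → B := fun t => ⟨t.1 v1, by
      rw [hB, LinearMap.mem_ker]
      exact hperp t⟩
    have hfT : Finite (V →ₗ[F] V) := Finite.of_injective (fun f : V →ₗ[F] V => (f : V → V)) DFunLike.coe_injective
    have hfin : Finite T := Subtype.finite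
    have hfib : ∀ w : B, Nat.card {t : T // ev t = w} ≤ Nat.card F ^ (M ^ 2) := by
      intro w
      by_cases hne : Nonempty {t : T // ev t = w}
      swap
      · rw [not_nonempty_iff] at hne
        rw [Nat.card_eq_zero.2 (Or.inl hne)]
        exact Nat.zero_le _
      obtain ⟨t0, ht0⟩ := hne
      have hw : (w : V) = t0.1 v1 := by rw [← ht0]
      have hwQ : Q (w : V) = Q v1 := by rw [hw, t0.2.1]
      have hw1 : polar Q v1 w = 0 := by rw [hw]; exact hperp t0
      set φ : V →ₗ[F] F × F := (Q.polarBilin v1).prod (Q.polarBilin (w : V)) with hφ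
      set W := LinearMap.ker φ with hW
      have hmem : ∀ x, x ∈ W ↔ polar Q v1 x = 0 ∧ polar Q (w : V) x = 0 := by
        intro x
        rw [hW, LinearMap.mem_ker]
        show ((polar Q v1 x, polar Q (w : V) x) : F × F) = 0 ↔ _
        rw [Prod.mk_eq_zero]
      have hdec : ∀ x : V, x - (polar Q v1 x / (2 * Q v1)) • v1 - (polar Q (w : V) x / (2 * Q v1)) • (w : V) ∈ W := by
        intro x
        have h0 : (2 * Q v1) ≠ 0 := mul_ne_zero h2 hv1
        rw [hmem]
        constructor
        · rw [polar_sub_right, polar_sub_right, polar_smul_right, polar_smul_right, hpself, hw1, smul_eq_mul,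
            smul_eq_mul, div_mul_cancel₀ _ h0]
          ring
        · rw [polar_sub_right, polar_sub_right, polar_smul_right, polar_smul_right, hpself, hwQ, polar_comm Q _ v1, hw1,
            smul_eq_mul, smul_eq_mul, div_mul_cancel₀ _ h0]
          ring
      have hWd : finrank F W = 2 * M := by
        have h3 := LinearMap.finrank_range_add_finrank_ker φ
        have h4 : LinearMap.range φ = ⊤ := by
          rw [LinearMap.range_eq_top]
          rintro ⟨a, b⟩
          have h0 : (2 * Q v1) ≠ 0 := mul_ne_zero h2 hv1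
          refine ⟨(a / (2 * Q v1)) • v1 + (b / (2 * Q v1)) • (w : V), ?_⟩
          have e1 : φ ((a / (2 * Q v1)) • v1 + (b / (2 * Q v1)) • (w : V)) =
              (polar Q v1 ((a / (2 * Q v1)) • v1 + (b / (2 * Q v1)) • (w : V)),
                polar Q (w : V) ((a / (2 * Q v1)) • v1 + (b / (2 * Q v1)) • (w : V))) := rfl
          rw [e1, polar_add_right, polar_add_right, polar_smul_right, polar_smul_right, polar_smul_right,
            polar_smul_right, hpself, hpself, hwQ, polar_comm Q (w : V) v1, hw1, smul_eq_mul, smul_eq_mul, smul_eq_mul,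
            smul_eq_mul, div_mul_cancel₀ _ h0, div_mul_cancel₀ _ h0, mul_zero, mul_zero, add_zero, zero_add]
        rw [h4, finrank_top, Module.finrank_prod, finrank_self, hM] at h3
        change 1 + 1 + finrank F W = _ at h3
        omega
      have hWn : Nondeg (Q.comp W.subtype) := by
        intro x hx
        apply Subtype.ext
        apply hQ
        intro y
        have h3 := hx ⟨_, hdec y⟩
        have h4 : polar Q (x : V) (y - (polar Q v1 y / (2 * Q v1)) • v1 - (polar Q (w : V) y / (2 * Q v1)) • (w : V)) = 0 :=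
          h3
        have h5 := (hmem x).1 x.2
        rw [polar_sub_right, polar_sub_right, polar_smul_right, polar_smul_right, polar_comm Q (x : V) v1,
          polar_comm Q (x : V) w, h5.1, h5.2, smul_zero, smul_zero, sub_zero, sub_zero] at h4
        exact h4
      have hv : ∀ t : {t : T // ev t = w}, t.1.1 v1 = w := fun t => congrArg Subtype.val t.2
      have hinv : ∀ t : {t : T // ev t = w}, ∀ x ∈ W, t.1.1 x ∈ W := by
        intro t x hx
        rw [hmem] at hx ⊢
        have h3 : t.1.1 w = -v1 := by rw [← hv t, t.1.2.2]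
        constructor
        · have h4 := polar_iso t.1.2.1 (w : V) x
          rw [h3, polar_neg_left, hx.2] at h4
          exact neg_eq_zero.1 h4
        · have h4 := polar_iso t.1.2.1 v1 x
          rw [hv t, hx.1] at h4
          exact h4
      refine le_trans ?_ (ih hWn hWd)
      have hfW : Finite (W →ₗ[F] W) := Finite.of_injective (fun f : W →ₗ[F] W => (f : W → W)) DFunLike.coe_injective
      have hfW2 : Finite {t : W →ₗ[F] W // (∀ v, (Q.comp W.subtype) (t v) = (Q.comp W.subtype) v) ∧ ∀ v, t (t v) = -v} :=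
        Subtype.finite
      refine Nat.card_le_card_of_injective (fun t => ⟨t.1.1.restrict (hinv t), ?_, ?_⟩) ?_
      · intro x
        exact t.1.2.1 x
      · intro x
        apply Subtype.ext
        exact t.1.2.2 x
      · intro t t' htt
        apply Subtype.ext
        apply Subtype.ext
        apply LinearMap.ext
        intro x
        have h3 : ∀ y ∈ W, t.1.1 y = t'.1.1 y := by
          intro y hy
          have h4 := congrArg (fun f => (f.1 ⟨y, hy⟩ : V)) htt
          exact h4
        have h4 : t.1.1 w = -v1 := by rw [← hv t, t.1.2.2]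
        have h5 : t'.1.1 w = -v1 := by rw [← hv t', t'.1.2.2]
        have h6 := h3 _ (hdec x)
        rw [map_sub, map_sub, map_smul, map_smul, map_sub, map_sub, map_smul, map_smul, hv t, hv t', h4, h5] at h6
        have h7 := congrArg (fun z => z + (polar Q (w : V) x / (2 * Q v1)) • (-v1) + (polar Q v1 x / (2 * Q v1)) • (w : V)) h6
        simpa using h7
    classical
    have hFB : Fintype B := Fintype.ofFinite B
    have e1 : Nat.card T = ∑ w : B, Nat.card {t : T // ev t = w} := by
      rw [← Nat.card_sigma]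
      exact Nat.card_congr (Equiv.sigmaFiberEquiv ev).symm
    have e2 : ∑ w : B, Nat.card {t : T // ev t = w} ≤ ∑ _w : B, Nat.card F ^ (M ^ 2) :=
      Finset.sum_le_sum fun w _ => hfib w
    rw [Finset.sum_const, Finset.card_univ, ← Nat.card_eq_fintype_card, hBc, smul_eq_mul, ← pow_add] at e2
    change Nat.card T ≤ _
    rw [e1]
    refine e2.trans (le_of_eq ?_)
    congr 1
    ring

end neg

/-! ### Counting subspaces -/

section sub

variable {F : Type u} [Field F] {V : Type v} [AddCommGroup V] [Module F V]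

theorem two_le_prod (q : ℕ) (hq : 3 ≤ q) (k : ℕ) :
    q ^ (k * k) * (q ^ k + 1) ≤ 2 * (q ^ k * ∏ i : Fin k, (q ^ k - q ^ (i : ℕ))) := by
  induction k with
  | zero => simp
  | succ k ih =>
    have e1 : ∏ i : Fin (k + 1), (q ^ (k + 1) - q ^ (i : ℕ)) =
        (q ^ (k + 1) - 1) * (q ^ k * ∏ i : Fin k, (q ^ k - q ^ (i : ℕ))) := by
      rw [Fin.prod_univ_succ]
      congr 1
      have e2 : ∀ i : Fin k, q ^ (k + 1) - q ^ ((i.succ : Fin (k + 1)) : ℕ) = q * (q ^ k - q ^ (i : ℕ)) := by
        intro i
        rw [Fin.val_succ, pow_succ', pow_succ', Nat.mul_sub]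
      rw [Finset.prod_congr rfl fun i _ => e2 i, Finset.prod_mul_distrib, Finset.prod_const, Finset.card_univ,
        Fintype.card_fin]
    rw [e1]
    set P := q ^ k * ∏ i : Fin k, (q ^ k - q ^ (i : ℕ)) with hP
    obtain ⟨A, hA⟩ : ∃ A, q ^ (k + 1) = A + 1 := ⟨q ^ (k + 1) - 1, by
      have : 0 < q ^ (k + 1) := Nat.pow_pos (by omega)
      omega⟩
    have hA' : q ^ (k + 1) - 1 = A := by omega
    have e3 : q ^ ((k + 1) * (k + 1)) = q ^ (k * k) * q ^ k * q ^ (k + 1) := by
      rw [← pow_add, ← pow_add]; congr 1; ring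
    have h1 : 1 ≤ q ^ k := Nat.one_le_pow _ _ (by omega)
    have h2 : q ^ k * (q ^ (k + 1) + 1) ≤ A * (q ^ k + 1) := by
      have h3 : q ^ (k + 1) = q * q ^ k := pow_succ' q k
      have h4 : 3 * q ^ k ≤ q ^ (k + 1) := by rw [h3]; exact Nat.mul_le_mul_right _ hq
      nlinarith
    rw [hA', e3]
    calc q ^ (k * k) * q ^ k * q ^ (k + 1) * (q ^ (k + 1) + 1)
        = q ^ (k * k) * q ^ (k + 1) * (q ^ k * (q ^ (k + 1) + 1)) := by ring
      _ ≤ q ^ (k * k) * q ^ (k + 1) * (A * (q ^ k + 1)) := Nat.mul_le_mul_left _ h2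
      _ = q ^ (k + 1) * A * (q ^ (k * k) * (q ^ k + 1)) := by ring
      _ ≤ q ^ (k + 1) * A * (2 * P) := Nat.mul_le_mul_left _ ih
      _ = 2 * (q ^ (k + 1) * (A * P)) := by ring

theorem card_subspaces [Finite F] [FiniteDimensional F V] (hq : 3 ≤ Nat.card F) (k : ℕ) (hk : k ≤ finrank F V) :
    Nat.card {U : Submodule F V // finrank F U = k} ≤ Nat.card F ^ (k * (finrank F V - k) + 1) := by
  classical
  have hV : Finite V := Module.finite_of_finite F
  have := Fintype.ofFinite F
  have hfS : Finite (Submodule F V) := Finite.of_injective (fun U : Submodule F V => (U : Set V)) SetLike.coe_injective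
  set q := Nat.card F with hqd
  have hfr : ∀ U : {U : Submodule F V // finrank F U = k},
      Nat.card {s : Fin k → U.1 // LinearIndependent F s} = ∏ i : Fin k, (q ^ k - q ^ (i : ℕ)) := by
    intro U
    have h1 := card_linearIndependent (K := F) (V := U.1) (k := k) (le_of_eq U.2.symm)
    rw [h1, U.2, hqd, Nat.card_eq_fintype_card]
  have := Fintype.ofFinite {U : Submodule F V // finrank F U = k}
  have h1 : Nat.card {U : Submodule F V // finrank F U = k} * ∏ i : Fin k, (q ^ k - q ^ (i : ℕ)) ≤
      (q ^ finrank F V) ^ k := by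
    have e1 : Nat.card (Σ U : {U : Submodule F V // finrank F U = k}, {s : Fin k → U.1 // LinearIndependent F s}) =
        Nat.card {U : Submodule F V // finrank F U = k} * ∏ i : Fin k, (q ^ k - q ^ (i : ℕ)) := by
      rw [Nat.card_sigma, Finset.sum_congr rfl fun U _ => hfr U, Finset.sum_const, Finset.card_univ, smul_eq_mul,
        Nat.card_eq_fintype_card]
    have e2 : Nat.card (Fin k → V) = (q ^ finrank F V) ^ k := by
      rw [Nat.card_fun, Nat.card_fin, Module.natCard_eq_pow_finrank (K := F)]
    rw [← e1, ← e2]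
    refine Nat.card_le_card_of_injective
      (fun a : (Σ U : {U : Submodule F V // finrank F U = k}, {s : Fin k → U.1 // LinearIndependent F s}) =>
        fun i => ((a.2.1 i : a.1.1) : V)) ?_
    have hspan : ∀ (U : {U : Submodule F V // finrank F U = k}) (s : {s : Fin k → U.1 // LinearIndependent F s}),
        Submodule.span F (Set.range fun i => ((s.1 i : U.1) : V)) = U.1 := by
      intro U s
      have h2 : Submodule.span F (Set.range s.1) = ⊤ :=
        s.2.span_eq_top_of_card_eq_finrank' (by rw [Fintype.card_fin, U.2])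
      have h3 : Set.range (fun i => ((s.1 i : U.1) : V)) = U.1.subtype '' Set.range s.1 := by
        rw [← Set.range_comp]; rfl
      rw [h3, Submodule.span_image, h2, Submodule.map_top, Submodule.range_subtype]
    rintro ⟨U, s⟩ ⟨U', s'⟩ h
    have h2 : U = U' := by
      apply Subtype.ext
      rw [← hspan U s, ← hspan U' s']
      congr 2
    subst h2
    congr 1
    apply Subtype.ext
    funext i
    apply Subtype.ext
    exact congrFun h i
  have h2 := two_le_prod q hq k
  set P := ∏ i : Fin k, (q ^ k - q ^ (i : ℕ)) with hP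
  have hq0 : 0 < q := by omega
  have h3 : q ^ (k * k) ≤ 2 * P := by
    have h4 : q ^ k * q ^ (k * k) ≤ q ^ k * (2 * P) := by
      calc q ^ k * q ^ (k * k) ≤ q ^ (k * k) * (q ^ k + 1) := by
            rw [mul_comm]
            exact Nat.mul_le_mul_left _ (Nat.le_succ _)
        _ ≤ 2 * (q ^ k * P) := h2
        _ = _ := by ring
    exact Nat.le_of_mul_le_mul_left h4 (Nat.pow_pos hq0)
  set C := Nat.card {U : Submodule F V // finrank F U = k} with hC
  have h4 : q ^ (k * k) * C ≤ q ^ (k * k) * q ^ (k * (finrank F V - k) + 1) := by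
    calc q ^ (k * k) * C ≤ 2 * P * C := Nat.mul_le_mul_right _ h3
      _ = 2 * (C * P) := by ring
      _ ≤ 2 * (q ^ finrank F V) ^ k := Nat.mul_le_mul_left _ h1
      _ ≤ q * (q ^ finrank F V) ^ k := Nat.mul_le_mul_right _ (by omega)
      _ = q ^ (k * k) * q ^ (k * (finrank F V - k) + 1) := by
        rw [← pow_mul, ← pow_succ', ← pow_add]
        congr 1
        obtain ⟨d, hd⟩ := Nat.exists_eq_add_of_le hk
        rw [hd, Nat.add_sub_cancel_left]
        ring
  exact Nat.le_of_mul_le_mul_left h4 (Nat.pow_pos hq0)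

end sub

/-! ### The class sizes -/

section cls

variable {F : Type u} [Field F] {V : Type v} [AddCommGroup V] [Module F V] {Q : QuadraticForm F V}

/-- **CL2** -/
theorem class_sq_neg [Finite F] [FiniteDimensional F V] (h2 : (2 : F) ≠ 0) (hQ : Nondeg Q) (M : ℕ)
    (hM : finrank F V = 2 * M) (t : ↥(E Q)) (ht : ∀ v, ap t (ap t v) = -v) :
    (Subgroup.centralizer ({t} : Set ↥(E Q))).index ≤ Nat.card F ^ (M ^ 2) := by
  have hV : Finite V := Module.finite_of_finite F
  have hfT : Finite (V →ₗ[F] V) := Finite.of_injective (fun f : V →ₗ[F] V => (f : V → V)) DFunLike.coe_injective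
  refine le_trans ?_ (card_J h2 M hQ hM)
  refine index_le_of_inj t (fun g => ⟨(((g * t * g⁻¹ : ↥(E Q)) : V ≃ₗ[F] V) : V →ₗ[F] V), ?_, ?_⟩) ?_
  · intro v
    exact Q_ap (g * t * g⁻¹) v
  · intro v
    show ap (g * t * g⁻¹) (ap (g * t * g⁻¹) v) = -v
    simp only [ap_mul]
    rw [ap_inv_ap, ht, ap_neg, ap_ap_inv]
  · intro g h hgh
    apply Subtype.ext
    apply LinearEquiv.toLinearMap_injective
    exact congrArg Subtype.val hgh

/-- an involution is determined by its `-1`-eigenspace -/
theorem eq_of_neg (h2 : (2 : F) ≠ 0) (hQ : Nondeg Q) {s s' : ↥(E Q)} (hs : s * s = 1) (hs' : s' * s' = 1)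
    (h : ∀ v, ap s v = -v ↔ ap s' v = -v) : s = s' := by
  have hss : ∀ v, ap s (ap s v) = v := fun v => by rw [← ap_mul, hs, ap_one]
  have hss' : ∀ v, ap s' (ap s' v) = v := fun v => by rw [← ap_mul, hs', ap_one]
  have h22 : ∀ a : F, a = -a → a = 0 := fun a ha => by
    have : 2 * a = 0 := by linear_combination ha
    exact (mul_eq_zero.1 this).resolve_left h2
  have hpol : ∀ (g : ↥(E Q)) x y, polar Q (ap g x) (ap g y) = polar Q x y := fun g x y => polar_map (E_le_O g.2) x y
  -- fixed vectors
  have key : ∀ x, ap s x = x → ap s' x = x := by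
    intro x hx
    have hz' : ap s' (x - ap s' x) = -(x - ap s' x) := by
      rw [ap_sub, hss']; abel
    have hz : ap s (x - ap s' x) = -(x - ap s' x) := (h _).2 hz'
    have h3 : ∀ u, ap s u = -u → polar Q x u = 0 := by
      intro u hu
      apply h22
      have h4 := hpol s x u
      rw [hx, hu, polar_neg_right] at h4
      exact h4.symm
    have h4 : ∀ u, ap s u = -u → polar Q (x - ap s' x) u = 0 := by
      intro u hu
      have h5 := hpol s' x u
      rw [(h u).1 hu, polar_neg_right, h3 u hu] at h5
      rw [polar_sub_left, h3 u hu, neg_eq_zero.1 h5, sub_zero]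
    have h5 : x - ap s' x = 0 := by
      apply hQ
      intro y
      have h6 : polar Q (x - ap s' x) (y + ap s y) = 0 := by
        apply h22
        have h7 := hpol s (x - ap s' x) (y + ap s y)
        rw [hz, ap_add, hss, add_comm (ap s y) y, polar_neg_left] at h7
        exact h7.symm
      have h8 : polar Q (x - ap s' x) (y - ap s y) = 0 := by
        apply h4
        rw [ap_sub, hss]; abel
      rw [polar_add_right] at h6
      rw [polar_sub_right] at h8
      have h9 : 2 * polar Q (x - ap s' x) y = 0 := by linear_combination h6 + h8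
      exact (mul_eq_zero.1 h9).resolve_left h2
    exact (sub_eq_zero.1 h5).symm
  apply ext_ap
  intro v
  have h3 : ap s' (v + ap s v) = v + ap s v := key _ (by rw [ap_add, hss]; abel)
  have h4 : ap s' (v - ap s v) = -(v - ap s v) := (h _).1 (by rw [ap_sub, hss]; abel)
  rw [ap_add] at h3
  rw [ap_sub] at h4
  have h5 : (2 : F) • ap s' v = (2 : F) • ap s v := by
    have : (ap s' v + ap s' (ap s v)) + (ap s' v - ap s' (ap s v)) = (v + ap s v) + -(v - ap s v) := by rw [h3, h4]
    have e1 : (ap s' v + ap s' (ap s v)) + (ap s' v - ap s' (ap s v)) = (2 : F) • ap s' v := by module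
    have e2 : (v + ap s v) + -(v - ap s v) = (2 : F) • ap s v := by module
    rw [← e1, ← e2, this]
  exact (smul_right_injective V h2 h5).symm

/-- **CL1** -/
theorem class_sq_one [Finite F] [FiniteDimensional F V] (h2 : (2 : F) ≠ 0) (hQ : Nondeg Q) (t : ↥(E Q))
    (ht : t * t = 1) (Vm : Submodule F V) (hVm : ∀ v, v ∈ Vm ↔ ap t v = -v) :
    (Subgroup.centralizer ({t} : Set ↥(E Q))).index ≤
      Nat.card F ^ (finrank F Vm * (finrank F V - finrank F Vm) + 1) := by
  have hV : Finite V := Module.finite_of_finite F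
  have hfS : Finite (Submodule F V) := Finite.of_injective (fun U : Submodule F V => (U : Set V)) SetLike.coe_injective
  have hq : 3 ≤ Nat.card F := by
    have := Fintype.ofFinite F
    rw [Nat.card_eq_fintype_card]
    have h3 : 1 < Fintype.card F := Fintype.one_lt_card
    rcases Nat.lt_or_ge 2 (Fintype.card F) with h4 | h4
    · exact h4
    · exfalso
      apply h2
      have h5 : Fintype.card F = 2 := by omega
      have h6 := FiniteField.cast_card_eq_zero F
      rw [h5] at h6
      exact_mod_cast h6
  refine le_trans ?_ (card_subspaces hq (finrank F Vm) (Submodule.finrank_le Vm))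
  refine index_le_of_inj t (fun g => ⟨Vm.map ((g : V ≃ₗ[F] V) : V →ₗ[F] V), ?_⟩) ?_
  · exact LinearEquiv.finrank_map_eq (g : V ≃ₗ[F] V) Vm
  · intro g h hgh
    have h3 : ∀ (g : ↥(E Q)) v, v ∈ Vm.map ((g : V ≃ₗ[F] V) : V →ₗ[F] V) ↔ ap (g * t * g⁻¹) v = -v := by
      intro g v
      rw [Submodule.mem_map]
      constructor
      · rintro ⟨u, hu, rfl⟩
        show ap (g * t * g⁻¹) (ap g u) = -(ap g u)
        rw [ap_mul, ap_mul, ap_inv_ap, (hVm u).1 hu, ap_neg]
      · intro h4
        refine ⟨ap g⁻¹ v, ?_, ap_ap_inv g v⟩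
        rw [hVm]
        rw [ap_mul, ap_mul] at h4
        have h5 := congrArg (ap g⁻¹) h4
        rw [ap_inv_ap, ap_neg] at h5
        exact h5
    have h4 : Vm.map ((g : V ≃ₗ[F] V) : V →ₗ[F] V) = Vm.map ((h : V ≃ₗ[F] V) : V →ₗ[F] V) := congrArg Subtype.val hgh
    have hsq : ∀ g : ↥(E Q), (g * t * g⁻¹) * (g * t * g⁻¹) = 1 := by
      intro g
      calc (g * t * g⁻¹) * (g * t * g⁻¹) = g * (t * t) * g⁻¹ := by group
        _ = 1 := by rw [ht, mul_one, mul_inv_cancel]
    refine eq_of_neg h2 hQ (hsq g) (hsq h) fun v => ?_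
    rw [← h3 g, ← h3 h, h4]

end cls

end Cfsg.Agent.H237.IF
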